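import Mathlib
import Cfsg.Agent.H245.DM.SpinMap
import Cfsg.Agent.H245.DM.TwoPart
import Cfsg.Agent.H245.DM.Count

/-!
# S4907, task DM30: the half spin group does not have the degrees of `Ω⁺` (helper245)

`no_same`: `m ≥ 6` even, `q` odd, `G = Ω⁺_{2m}(q)`, `H` a quasisimple group with centre of order two and the same simple
quotient, not isomorphic to `G`; then the degrees of `G` and `H` (with multiplicity) are not the same.

Proof: every irreducible character of `H` which is not trivial on the centre has a degree divisible by `2 ^ (m - 2)`, and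
`G` has an irreducible character, not trivial on the centre, whose degree has a two-part at most `2 m < 2 ^ (m - 2)`.
-/

set_option autoImplicit false

namespace Cfsg.Agent.H245.DM

open QuadraticMap CliffordAlgebra
open Cfsg.Agent.LieClassical Cfsg.Agent.LieClassical.OrthCore Cfsg.Agent.LieClassical.OrthTrans
open Cfsg.Agent.TitsThree Cfsg.Agent.TitsThree.Siegel Cfsg.Agent.TitsThree.SiegelGen Cfsg.Agent.TitsThree.KSideO
open Cfsg.Agent.LieClassical.OrthForms
open Cfsg.Agent.TitsThree.WBridge Cfsg.Agent.TitsThree.StdData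
open Cfsg.Agent.Nodes.WittInst
open Cfsg.Agent.H51.Mult Cfsg.Agent.H63.Spin Cfsg.Agent.H63.Asm Cfsg.Agent.H63.Plus
open Cfsg.Agent.H700.DM (SameDeg)
open Cfsg.Agent.H686.CharKit (chKer mem_chKer)

universe u v w

/-- the natural representation of `Ω⁺_{2m}(q)` and the element `-1` -/
theorem exists_rep {F : Type w} [Field F] [Finite F] (h2 : (2 : F) ≠ 0) {m : ℕ} (hm : 4 ≤ m) (hev : Even m)
    {G : Type u} [Group G] (eG : G ≃* Cfsg.Omega F (Cfsg.quadFormPlus m F)) :
    ∃ (z : G) (ρ : G →* Module.End F (Fin m ⊕ Fin m → F)), z ∈ Subgroup.center G ∧ z * z = 1 ∧ ρ z = -1 := by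
  rw [← coe_plusForm] at eG
  have hG : Good (plusForm m F) := good_plus F (by omega)
  obtain ⟨k, hk⟩ := hev
  obtain ⟨w, ⟨x, hx, hx'⟩, hwv, -⟩ := exists_z_even (wplus m F) hG h2 (by omega) (k := k) (by omega) V0_plus
  set y : E (plusForm m F) := prL hG ⟨x, hx⟩ with hy
  have hyv : ∀ v, y.1 v = -v := fun v => by
    show (x : Am (plusForm m F)).2 v = -v
    rw [hx', hwv]
  have hyc : y ∈ Subgroup.center (E (plusForm m F)) := by
    rw [Subgroup.mem_center_iff]
    intro g
    apply Subtype.ext
    ext1 v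
    show g.1 (y.1 v) = y.1 (g.1 v)
    rw [hyv, hyv, map_neg]
  let e : G ≃* E (plusForm m F) := eG.trans (toOmega hG).symm
  let ρ : G →* Module.End F (Fin m ⊕ Fin m → F) :=
    (LinearEquiv.automorphismGroup.toLinearMapMonoidHom).comp ((E (plusForm m F)).subtype.comp e.toMonoidHom)
  refine ⟨e.symm y, ρ, ?_, ?_, ?_⟩
  · rw [Subgroup.mem_center_iff]
    intro g
    apply e.injective
    rw [map_mul, map_mul, MulEquiv.apply_symm_apply]
    exact Subgroup.mem_center_iff.1 hyc (e g)
  · apply e.injective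
    rw [map_mul, MulEquiv.apply_symm_apply, map_one]
    apply Subtype.ext
    ext1 v
    show y.1 (y.1 v) = v
    rw [hyv, hyv, neg_neg]
  · refine LinearMap.ext fun v => ?_
    show ((e (e.symm y)).1 : (Fin m ⊕ Fin m → F) ≃ₗ[F] (Fin m ⊕ Fin m → F)) v = -v
    rw [MulEquiv.apply_symm_apply, hyv]

theorem two_mul_lt {m : ℕ} (hm : 6 ≤ m) : 2 * m < 2 ^ (m - 2) := by
  induction m, hm using Nat.le_induction with
  | base => norm_num
  | succ m hm ih =>
    have e : m + 1 - 2 = (m - 2) + 1 := by omega
    rw [e, pow_succ]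
    omega

/-- **The half spin groups do not have the degrees of the orthogonal group.** -/
theorem no_same {F : Type} [Field F] [Fintype F] (ho : Odd (Fintype.card F)) {m : ℕ} (hm : 6 ≤ m) (hev : Even m)
    {G : Type u} {H : Type v} [Group G] [Finite G] [Group H] [Finite H]
    (eG : G ≃* Cfsg.Omega F (Cfsg.quadFormPlus m F)) (hH : Cfsg.IsQuasisimple H)
    (eH : H ⧸ Subgroup.center H ≃* Cfsg.POmega F (Cfsg.quadFormPlus m F)) (cH : Nat.card (Subgroup.center H) = 2)
    (hn : ¬ Nonempty (H ≃* Cfsg.Omega F (Cfsg.quadFormPlus m F))) : ¬ SameDeg G H := by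
  intro hsame
  have h2 : (2 : F) ≠ 0 := by
    intro h
    have h1 : ringChar F = 2 := by
      have h3 : ((2 : ℕ) : F) = 0 := by exact_mod_cast h
      have h4 : ringChar F ∣ 2 := ringChar.dvd h3
      rcases (Nat.dvd_prime Nat.prime_two).1 h4 with h5 | h5
      · exact absurd h5 (CharP.ringChar_ne_one)
      · exact h5
    have h6 := FiniteField.even_card_of_char_two h1
    rw [Nat.odd_iff] at ho
    omega
  obtain ⟨z, ρ, hz, hzz, hρ⟩ := exists_rep h2 (by omega) hev eG
  have hnt : Nontrivial (Fin m ⊕ Fin m → F) := by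
    have : Nonempty (Fin m ⊕ Fin m) := ⟨Sum.inl ⟨0, by omega⟩⟩
    infer_instance
  obtain ⟨χ, hχ, hχ2⟩ := exists_irr_two_part_le hz hzz h2 ρ hρ
  have hdim : Module.finrank F (Fin m ⊕ Fin m → F) = 2 * m := by
    rw [Module.finrank_fintype_fun_eq_card, Fintype.card_sum, Fintype.card_fin]
    ring
  -- the central quotients
  have eQ : G ⧸ Subgroup.center G ≃* H ⧸ Subgroup.center H := by
    refine (QuotientGroup.congr (Subgroup.center G) (Subgroup.center (Cfsg.Omega F (Cfsg.quadFormPlus m F))) eG ?_).trans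
      eH.symm
    ext x
    constructor
    · rintro ⟨g, hg, rfl⟩
      rw [Subgroup.mem_center_iff]
      intro y
      obtain ⟨y, rfl⟩ := eG.surjective y
      have := Subgroup.mem_center_iff.1 hg y
      show eG y * eG g = eG g * eG y
      rw [← map_mul, ← map_mul, this]
    · intro hx
      refine ⟨eG.symm x, ?_, eG.apply_symm_apply x⟩
      rw [SetLike.mem_coe, Subgroup.mem_center_iff]
      intro y
      apply eG.injective
      rw [map_mul, map_mul, eG.apply_symm_apply]
      exact Subgroup.mem_center_iff.1 hx (eG y)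
  have hχk : ¬ Subgroup.center G ≤ chKer χ := by
    intro h
    have h1 := h hz
    rw [mem_chKer, hχ] at h1
    have h3 : (χ : G → ℂ) 1 = 0 := by linear_combination (-1 / 2 : ℂ) * h1
    rw [← Cfsg.Agent.H686.CharKit.charDegree_irr χ] at h3
    have h4 := Cfsg.Agent.H686.CharKit.charDegree_pos χ
    have h5 : Cfsg.charDegree (χ : G → ℂ) = 0 := by exact_mod_cast h3
    omega
  obtain ⟨χ', hd, hχ'⟩ := exists_irr_of_sameDeg hsame eQ χ hχk
  -- the pairs in `H`
  obtain ⟨t, x, y, ht, ht1, htt, hprs⟩ := exists_prs_of_not_omega h2 (by omega) hev hH.1.commutator_eq_top eH cH hn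
  have hχt : (χ' : H → ℂ) t = -(χ' : H → ℂ) 1 := by
    refine (central_involution χ'.2 ht htt).resolve_right fun h => hχ' ?_
    have h1 : t ∈ chKer χ' := by
      rw [mem_chKer, ← h 1, one_mul]
    have h3 : Subgroup.zpowers t = Subgroup.center H := by
      have h4 : Subgroup.zpowers t ≤ Subgroup.center H := by rwa [Subgroup.zpowers_le]
      refine Subgroup.eq_of_le_of_card_ge h4 ?_
      rw [cH, Nat.card_zpowers]
      have h5 : orderOf t = 2 := by
        have : Fact (Nat.Prime 2) := ⟨Nat.prime_two⟩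
        exact orderOf_eq_prime (by rw [pow_two, htt]) ht1
      omega
    rw [← h3, Subgroup.zpowers_le]
    exact h1
  have h6 := pow_dvd_charDegree hprs htt χ' hχt
  rw [hd] at h6
  have h7 := hχ2 _ h6
  rw [hdim] at h7
  have := two_mul_lt hm
  omega

end Cfsg.Agent.H245.DM
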