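import Mathlib

/-!
# S4907, task DM30: representations of `p`-groups over algebraically closed fields of any characteristic (helper245)

`exists_scalar_vector`: a representation of a finite `p`-group `P` of dimension `n > 0` over an algebraically closed field
has a nonzero vector `v` and a subgroup `A` containing the centre, of index at most `n`, with `a v ∈ k v` for `a ∈ A`.
-/

set_option autoImplicit false

namespace Cfsg.Agent.H245.DM

open Module

universe u v w

section

variable {k : Type w} [Field k] {V : Type v} [AddCommGroup V] [Module k V]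

theorem sum_finrank_le_of_iSupIndep [FiniteDimensional k V] {ι : Type*} [Fintype ι] {p : ι → Submodule k V}
    (hp : iSupIndep p) : ∑ i, finrank k (p i) ≤ finrank k V := by
  classical
  have h1 := hp.dfinsupp_lsum_injective
  have h2 := LinearMap.finrank_le_finrank_of_injective h1
  have h3 : finrank k (Π₀ i, p i) = ∑ i, finrank k (p i) := Module.finrank_directSum k (fun i => ↥(p i))
  rw [← h3]
  exact h2

variable {P : Type u} [Group P] (ρ : P →* Module.End k V)

/-- the elements acting as scalars -/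
def scal : Subgroup P where
  carrier := {g | ∃ c : k, ρ g = c • 1}
  one_mem' := ⟨1, by rw [map_one, one_smul]⟩
  mul_mem' := by
    rintro a b ⟨c, hc⟩ ⟨d, hd⟩
    exact ⟨c * d, by rw [map_mul, hc, hd, smul_mul_smul_comm, mul_one]⟩
  inv_mem' := by
    rintro a ⟨c, hc⟩
    refine ⟨c⁻¹, ?_⟩
    have h1 : ρ a⁻¹ * ρ a = 1 := by rw [← map_mul, inv_mul_cancel, map_one]
    by_cases h0 : c = 0
    · rw [hc, h0, zero_smul, mul_zero] at h1
      have h2 : ρ a⁻¹ = 0 := by rw [← mul_one (ρ a⁻¹), ← h1, mul_zero]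
      rw [h2, h0, inv_zero, zero_smul]
    · rw [hc, mul_smul_comm, mul_one] at h1
      rw [← h1, smul_smul, inv_mul_cancel₀ h0, one_smul]

theorem mem_scal {g : P} : g ∈ scal ρ ↔ ∃ c : k, ρ g = c • 1 := Iff.rfl

instance scal_normal : (scal ρ).Normal := by
  constructor
  rintro n ⟨c, hc⟩ g
  refine ⟨c, ?_⟩
  rw [map_mul, map_mul, hc, mul_smul_comm, mul_one, smul_mul_assoc, ← map_mul, mul_inv_cancel, map_one]

/-- the elements which commute with `g` modulo the kernel -/
def fixe (g : P) : Subgroup P where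
  carrier := {h | ρ g * ρ h = ρ h * ρ g}
  one_mem' := by
    show ρ g * ρ 1 = ρ 1 * ρ g
    rw [map_one, one_mul, mul_one]
  mul_mem' := by
    intro a b ha hb
    show ρ g * ρ (a * b) = ρ (a * b) * ρ g
    have ha' : ρ g * ρ a = ρ a * ρ g := ha
    have hb' : ρ g * ρ b = ρ b * ρ g := hb
    rw [map_mul, ← mul_assoc, ha', mul_assoc, hb', mul_assoc]
  inv_mem' := by
    intro a ha
    show ρ g * ρ a⁻¹ = ρ a⁻¹ * ρ g
    have ha' : ρ g * ρ a = ρ a * ρ g := ha
    have h1 : ρ a⁻¹ * ρ a = 1 := by rw [← map_mul, inv_mul_cancel, map_one]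
    have h2 : ρ a * ρ a⁻¹ = 1 := by rw [← map_mul, mul_inv_cancel, map_one]
    calc ρ g * ρ a⁻¹ = (ρ a⁻¹ * ρ a) * (ρ g * ρ a⁻¹) := by rw [h1, one_mul]
      _ = ρ a⁻¹ * (ρ a * ρ g) * ρ a⁻¹ := by simp only [mul_assoc]
      _ = ρ a⁻¹ * (ρ g * ρ a) * ρ a⁻¹ := by rw [ha']
      _ = ρ a⁻¹ * ρ g * (ρ a * ρ a⁻¹) := by simp only [mul_assoc]
      _ = ρ a⁻¹ * ρ g := by rw [h2, mul_one]

theorem mem_fixe {g h : P} : h ∈ fixe ρ g ↔ ρ g * ρ h = ρ h * ρ g := Iff.rfl

theorem fixe_eigenspace {g h : P} (hh : h ∈ fixe ρ g) (α : k) :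
    ∀ v ∈ (ρ g).eigenspace α, ρ h v ∈ (ρ g).eigenspace α := by
  intro v hv
  rw [Module.End.mem_eigenspace_iff] at hv ⊢
  have h3 := LinearMap.congr_fun ((mem_fixe ρ).1 hh) v
  rw [Module.End.mul_apply, Module.End.mul_apply, hv, map_smul] at h3
  exact h3

/-- the restriction to an eigenspace -/
noncomputable def resE (g : P) (α : k) : fixe ρ g →* Module.End k ((ρ g).eigenspace α) where
  toFun h := (ρ h.1).restrict (fixe_eigenspace ρ h.2 α)
  map_one' := by
    ext v
    show ρ (1 : P) (v : V) = v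
    rw [map_one]
    rfl
  map_mul' a b := by
    ext v
    show ρ ((a : P) * b) (v : V) = ρ a (ρ b v)
    rw [map_mul]
    rfl

theorem resE_apply {g : P} {α : k} (h : fixe ρ g) (v : (ρ g).eigenspace α) :
    ((resE ρ g α h v : (ρ g).eigenspace α) : V) = ρ h.1 v := rfl

/-- the index of the stabiliser of an eigenspace -/
theorem index_mul_finrank_le [FiniteDimensional k V] [Finite P] {g : P} {α : k} (hα : α ≠ 0)
    (hg : ∀ h : P, ∃ c : k, ρ (h * g * h⁻¹ * g⁻¹) = c • 1) :
    (fixe ρ g).index * finrank k ((ρ g).eigenspace α) ≤ finrank k V := by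
  classical
  rcases subsingleton_or_nontrivial V with hV | hV
  · have : finrank k ((ρ g).eigenspace α) = 0 := by
      rw [Module.finrank_zero_iff]
      infer_instance
    rw [this, mul_zero]
    exact Nat.zero_le _
  choose c hc using hg
  have hinv : ∀ h : P, ρ h * ρ h⁻¹ = 1 := fun h => by rw [← map_mul, mul_inv_cancel, map_one]
  have hinv' : ∀ h : P, ρ h⁻¹ * ρ h = 1 := fun h => by rw [← map_mul, inv_mul_cancel, map_one]
  -- `ρ h ρ g = c h ρ g ρ h`
  have hcm : ∀ h, ρ h * ρ g = c h • (ρ g * ρ h) := fun h => by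
    have e : h * g = (h * g * h⁻¹ * g⁻¹) * (g * h) := by group
    rw [← map_mul, e, map_mul, hc, map_mul, smul_mul_assoc, one_mul]
  have hc0 : ∀ h, c h ≠ 0 := fun h h0 => by
    have h1 := hc h
    rw [h0, zero_smul] at h1
    have h2 := hinv (h * g * h⁻¹ * g⁻¹)
    rw [h1, zero_mul] at h2
    exact zero_ne_one h2
  -- the other eigenspaces
  let e : P → k := fun h => (c h)⁻¹ * α
  have he : ∀ h, ((ρ g).eigenspace α).map (ρ h) ≤ (ρ g).eigenspace (e h) := by
    rintro h _ ⟨v, hv, rfl⟩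
    rw [SetLike.mem_coe, Module.End.mem_eigenspace_iff] at hv
    rw [Module.End.mem_eigenspace_iff]
    have h1 := LinearMap.congr_fun (hcm h) v
    rw [Module.End.mul_apply, hv, map_smul, LinearMap.smul_apply, Module.End.mul_apply] at h1
    rw [show e h = (c h)⁻¹ * α from rfl, mul_smul, h1, smul_smul, inv_mul_cancel₀ (hc0 h), one_smul]
  have hfin : ∀ h, finrank k ((ρ g).eigenspace α) ≤ finrank k ((ρ g).eigenspace (e h)) := fun h => by
    refine le_trans (le_of_eq ?_) (Submodule.finrank_mono (he h))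
    refine (Submodule.equivMapOfInjective (ρ h) ?_ _).finrank_eq
    intro a b hab
    have h1 := congrArg (ρ h⁻¹) hab
    rw [← Module.End.mul_apply, ← Module.End.mul_apply, hinv'] at h1
    exact h1
  -- different cosets give different eigenvalues
  let f : P ⧸ fixe ρ g → k := fun q => e q.out
  have hf : Function.Injective f := by
    intro q q' hqq
    have h1 : (c q.out)⁻¹ * α = (c q'.out)⁻¹ * α := hqq
    have h2 : c q.out = c q'.out := inv_injective (mul_right_cancel₀ hα h1)
    rw [← QuotientGroup.out_eq' q, ← QuotientGroup.out_eq' q', QuotientGroup.eq, mem_fixe]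
    obtain ⟨a, ha⟩ : ∃ a, a = q.out := ⟨_, rfl⟩
    obtain ⟨b, hb⟩ : ∃ b, b = q'.out := ⟨_, rfl⟩
    rw [← ha, ← hb] at h2 ⊢
    have h3 := hcm a
    have h4 := hcm b
    rw [← h2] at h4
    have h5 : ρ g = c a • (ρ a⁻¹ * ρ g * ρ a) := by
      calc ρ g = ρ a⁻¹ * (ρ a * ρ g) := by rw [← mul_assoc, hinv', one_mul]
        _ = c a • (ρ a⁻¹ * ρ g * ρ a) := by rw [h3, mul_smul_comm, mul_assoc]
    have h6 : ρ g * ρ b = (c a)⁻¹ • (ρ b * ρ g) := by rw [h4, smul_smul, inv_mul_cancel₀ (hc0 a), one_smul]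
    have h7 : ρ g * ρ a⁻¹ = c a • (ρ a⁻¹ * ρ g) := by
      nth_rewrite 1 [h5]
      rw [smul_mul_assoc, mul_assoc, hinv, mul_one]
    rw [map_mul, ← mul_assoc, h7, smul_mul_assoc, mul_assoc, h6, mul_smul_comm, smul_smul, mul_inv_cancel₀ (hc0 a),
      one_smul, mul_assoc]
  have hind : iSupIndep fun q : P ⧸ fixe ρ g => (ρ g).eigenspace (f q) := (ρ g).eigenspaces_iSupIndep.comp hf
  have : Fintype (P ⧸ fixe ρ g) := Fintype.ofFinite _
  refine le_trans ?_ (sum_finrank_le_of_iSupIndep hind)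
  rw [Subgroup.index_eq_card, Nat.card_eq_fintype_card, ← Finset.card_univ, ← smul_eq_mul, ← Finset.sum_const]
  exact Finset.sum_le_sum fun q _ => hfin q.out

end

/-- **Every representation of a finite `p`-group has a line stabilised by a subgroup of index at most the dimension.** -/
theorem exists_scalar_vector {k : Type w} [Field k] [IsAlgClosed k] {p : ℕ} [Fact p.Prime] (n : ℕ) :
    ∀ (P : Type u) [Group P] [Finite P] (_ : IsPGroup p P) (V : Type v) [AddCommGroup V] [Module k V]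
      [FiniteDimensional k V] (ρ : P →* Module.End k V), finrank k V = n → 0 < n →
    ∃ A : Subgroup P, Subgroup.center P ≤ A ∧ A.index ≤ n ∧ ∃ v : V, v ≠ 0 ∧ ∀ a ∈ A, ∃ c : k, ρ a v = c • v := by
  induction n using Nat.strong_induction_on with
  | _ n ih =>
  intro P _ _ hP V _ _ _ ρ hn hpos
  have hV : Nontrivial V := Module.nontrivial_of_finrank_pos (R := k) (by omega)
  by_cases htop : scal ρ = ⊤
  · obtain ⟨v, hv⟩ := exists_ne (0 : V)
    refine ⟨⊤, le_top, by rw [Subgroup.index_top]; omega, v, hv, fun a _ => ?_⟩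
    obtain ⟨c, hc⟩ : a ∈ scal ρ := by rw [htop]; exact Subgroup.mem_top a
    exact ⟨c, by rw [hc, LinearMap.smul_apply, Module.End.one_apply]⟩
  -- an element central modulo the scalars
  obtain ⟨g, hgs, hgc⟩ : ∃ g : P, g ∉ scal ρ ∧ ∀ h : P, h * g * h⁻¹ * g⁻¹ ∈ scal ρ := by
    have hP' : IsPGroup p (P ⧸ scal ρ) := hP.to_quotient _
    have : Nontrivial (P ⧸ scal ρ) := by
      rw [← not_subsingleton_iff_nontrivial, QuotientGroup.subsingleton_iff]
      exact htop
    have hc := hP'.center_nontrivial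
    obtain ⟨⟨q, hq⟩, hne⟩ := exists_ne (1 : Subgroup.center (P ⧸ scal ρ))
    obtain ⟨g, rfl⟩ := QuotientGroup.mk'_surjective (scal ρ) q
    refine ⟨g, ?_, ?_⟩
    · intro h
      apply hne
      apply Subtype.ext
      exact (QuotientGroup.eq_one_iff g).2 h
    · intro h
      rw [← QuotientGroup.eq_one_iff]
      have h1 := Subgroup.mem_center_iff.1 hq (QuotientGroup.mk' (scal ρ) h)
      show (h : P ⧸ scal ρ) * g * (h : P ⧸ scal ρ)⁻¹ * (g : P ⧸ scal ρ)⁻¹ = 1
      have h2 : (h : P ⧸ scal ρ) * g = g * h := h1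
      rw [h2]
      group
  obtain ⟨α, hα⟩ := Module.End.exists_eigenvalue (ρ g)
  have hEne : (ρ g).eigenspace α ≠ ⊥ := hα
  have hinv' : ρ g⁻¹ * ρ g = 1 := by rw [← map_mul, inv_mul_cancel, map_one]
  have hα0 : α ≠ 0 := by
    rintro rfl
    obtain ⟨v, hv, hv0⟩ := hα.exists_hasEigenvector
    rw [Module.End.mem_eigenspace_iff, zero_smul] at hv
    apply hv0
    have h1 := LinearMap.congr_fun hinv' v
    rw [Module.End.mul_apply, hv, map_zero] at h1
    exact h1.symm
  have hlt : finrank k ((ρ g).eigenspace α) < n := by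
    rw [← hn]
    refine Submodule.finrank_lt ?_
    intro h
    apply hgs
    refine ⟨α, ?_⟩
    ext v
    have h1 : v ∈ (ρ g).eigenspace α := by rw [h]; exact Submodule.mem_top
    rw [Module.End.mem_eigenspace_iff] at h1
    exact h1
  have hpos' : 0 < finrank k ((ρ g).eigenspace α) := by
    rw [Nat.pos_iff_ne_zero, Ne, Submodule.finrank_eq_zero]
    exact hEne
  obtain ⟨A, hcA, hA, v, hv0, hv⟩ := ih _ hlt (fixe ρ g) (hP.to_subgroup _) _ (resE ρ g α) rfl hpos'
  refine ⟨A.map (fixe ρ g).subtype, ?_, ?_, v, fun h => hv0 (Subtype.ext h), ?_⟩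
  · intro x hx
    have hxf : x ∈ fixe ρ g := by
      rw [mem_fixe, ← map_mul, ← map_mul, Subgroup.mem_center_iff.1 hx g]
    refine ⟨⟨x, hxf⟩, hcA ?_, rfl⟩
    rw [Subgroup.mem_center_iff]
    intro y
    exact Subtype.ext (Subgroup.mem_center_iff.1 hx y)
  · rw [Subgroup.index_map_subtype, mul_comm]
    have h1 := index_mul_finrank_le ρ hα0 hgc
    rw [hn] at h1
    exact (Nat.mul_le_mul_left _ hA).trans h1
  · rintro _ ⟨a, ha, rfl⟩
    obtain ⟨c, hc⟩ := hv a ha
    exact ⟨c, congrArg Subtype.val hc⟩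

end Cfsg.Agent.H245.DM
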